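import Cfsg.Agent.H752.Mp
import Cfsg.Agent.H285.SF.Defs
set_option linter.all false

/-! # S5176, section 5: transport of maps along an isomorphism given as a graph -/
set_option autoImplicit false

namespace Cfsg.Agent.H764.Q
open Cfsg Cfsg.FusionSystem Cfsg.Agent.H752

universe u v

variable {Ω : Type u} [Group Ω] {Ω' : Type v} [Group Ω'] {S : Subgroup Ω} {S' : Subgroup Ω'}

/-- `H` is the graph of an isomorphism from `S` to `S'`. -/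
structure Gr (S : Subgroup Ω) (S' : Subgroup Ω') (H : Subgroup (Ω × Ω')) : Prop where
  memS : ∀ x y, (x, y) ∈ H → x ∈ S ∧ y ∈ S'
  tot : ∀ x ∈ S, ∃ y, (x, y) ∈ H
  tot' : ∀ y ∈ S', ∃ x, (x, y) ∈ H
  inj : ∀ y, (1, y) ∈ H → y = 1
  inj' : ∀ x, (x, 1) ∈ H → x = 1

namespace Gr

variable {H : Subgroup (Ω × Ω')} (g : Gr S S' H)
include g

theorem uniq {x : Ω} {y y' : Ω'} (h : (x, y) ∈ H) (h' : (x, y') ∈ H) : y = y' := by
  have h1 : (1, y⁻¹ * y') ∈ H := by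
    have := mul_mem (inv_mem h) h'
    rw [Prod.inv_mk, Prod.mk_mul_mk, inv_mul_cancel] at this
    exact this
  have h2 := g.inj _ h1
  exact (inv_mul_eq_one.mp h2)

theorem uniq' {x x' : Ω} {y : Ω'} (h : (x, y) ∈ H) (h' : (x', y) ∈ H) : x = x' := by
  have h1 : (x⁻¹ * x', 1) ∈ H := by
    have := mul_mem (inv_mem h) h'
    rw [Prod.inv_mk, Prod.mk_mul_mk, inv_mul_cancel] at this
    exact this
  have h2 := g.inj' _ h1
  exact (inv_mul_eq_one.mp h2)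

theorem exists_j : ∃ j : Ω → Ω', (∀ x ∈ S, (x, j x) ∈ H) := by
  classical
  exact ⟨fun x => if h : ∃ y, (x, y) ∈ H then h.choose else 1, fun x hx => by
    have h := g.tot x hx
    simp only [dif_pos h]
    exact h.choose_spec⟩

theorem exists_j' : ∃ j : Ω' → Ω, (∀ y ∈ S', (j y, y) ∈ H) := by
  classical
  exact ⟨fun y => if h : ∃ x, (x, y) ∈ H then h.choose else 1, fun y hy => by
    have h := g.tot' y hy
    simp only [dif_pos h]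
    exact h.choose_spec⟩

/-- The image of `P`. -/
theorem exists_img {P : Subgroup Ω} (hP : P ≤ S) : ∃ P' : Subgroup Ω', (∀ y, y ∈ P' ↔ ∃ x ∈ P, (x, y) ∈ H) ∧ P' ≤ S' := by
  refine ⟨{ carrier := {y | ∃ x ∈ P, (x, y) ∈ H}, mul_mem' := ?_, one_mem' := ⟨1, one_mem _, one_mem _⟩, inv_mem' := ?_ },
    fun y => Iff.rfl, fun y hy => ?_⟩
  · rintro y y' ⟨x, hx, h⟩ ⟨x', hx', h'⟩
    exact ⟨x * x', mul_mem hx hx', mul_mem h h'⟩
  · rintro y ⟨x, hx, h⟩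
    exact ⟨x⁻¹, inv_mem hx, inv_mem h⟩
  · obtain ⟨x, hx, h⟩ := hy
    exact (g.memS _ _ h).2

end Gr

/-- The map `f` on `P` is transported by `H` to a map of `F'`. -/
def Tr (F' : FusionSystem S') (H : Subgroup (Ω × Ω')) (P : Subgroup Ω) (f : Ω → Ω) : Prop :=
  ∃ (P' : Subgroup Ω') (f' : Ω' → Ω'), Mp F' P' f' ∧ ∀ x ∈ P, ∀ y, (x, y) ∈ H → y ∈ P' ∧ (f x, f' y) ∈ H

variable {F : FusionSystem S} {F' : FusionSystem S'} {H : Subgroup (Ω × Ω')}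

theorem Tr.congr {P : Subgroup Ω} {f g : Ω → Ω} (h : Tr F' H P f) (he : ∀ x ∈ P, g x = f x) : Tr F' H P g := by
  obtain ⟨P', f', h1, h2⟩ := h
  exact ⟨P', f', h1, fun x hx y hy => by rw [he x hx]; exact h2 x hx y hy⟩

theorem Tr.res {P Q : Subgroup Ω} {f : Ω → Ω} (h : Tr F' H P f) (hQ : Q ≤ P) : Tr F' H Q f := by
  obtain ⟨P', f', h1, h2⟩ := h
  exact ⟨P', f', h1, fun x hx => h2 x (hQ hx)⟩

theorem Tr.comp (gr : Gr S S' H) {P Q : Subgroup Ω} (hP : P ≤ S) {f g : Ω → Ω} (h : Tr F' H P f) (h' : Tr F' H Q g)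
    (hm : ∀ x ∈ P, f x ∈ Q) : Tr F' H P (fun x => g (f x)) := by
  obtain ⟨P', f', h1, h2⟩ := h
  obtain ⟨Q', g', h3, h4⟩ := h'
  obtain ⟨P'', h5, -⟩ := gr.exists_img hP
  have h6 : P'' ≤ P' := fun y hy => by
    obtain ⟨x, hx, h7⟩ := (h5 y).mp hy
    exact (h2 x hx y h7).1
  refine ⟨P'', fun y => g' (f' y), (h1.res h6).comp h3 fun y hy => ?_, fun x hx y hy => ⟨(h5 y).mpr ⟨x, hx, hy⟩, ?_⟩⟩
  · obtain ⟨x, hx, h7⟩ := (h5 y).mp hy
    exact (h4 _ (hm x hx) _ (h2 x hx y h7).2).1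
  · exact (h4 _ (hm x hx) _ (h2 x hx y hy).2).2

theorem Tr.symm (gr : Gr S S' H) {P Q : Subgroup Ω} (hP : P ≤ S) {f g : Ω → Ω} (h : Tr F' H P f)
    (hm : ∀ y ∈ Q, ∃ x ∈ P, f x = y ∧ g y = x) : Tr F' H Q g := by
  obtain ⟨P', f', h1, h2⟩ := h
  obtain ⟨P'', h5, -⟩ := gr.exists_img hP
  have h6 : P'' ≤ P' := fun y hy => by
    obtain ⟨x, hx, h7⟩ := (h5 y).mp hy
    exact (h2 x hx y h7).1
  obtain ⟨T, hT, -, -⟩ := h1.exists_image h6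
  obtain ⟨g', h7, h8, h9⟩ := h1.exists_symm h6 hT
  refine ⟨T, g', h7, fun y hy v hv => ?_⟩
  obtain ⟨x, hx, hxy, hgy⟩ := hm y hy
  obtain ⟨u, hu⟩ := gr.tot x (hP hx)
  have h10 := h2 x hx u hu
  rw [hxy] at h10
  have h11 := gr.uniq h10.2 hv
  have h12 : u ∈ P'' := (h5 u).mpr ⟨x, hx, hu⟩
  refine ⟨(hT v).mpr ⟨u, h12, h11⟩, ?_⟩
  rw [hgy, ← h11, h8 u h12]
  exact hu

theorem Tr.conj (gr : Gr S S' H) {P : Subgroup Ω} {s : Ω} (hs : s ∈ S) :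
    Tr F' H P (fun x => s * x * s⁻¹) := by
  obtain ⟨s', hs'⟩ := gr.tot s hs
  refine ⟨S', fun y => s' * y * s'⁻¹, mp_conj F' le_rfl (gr.memS _ _ hs').2, fun x _ y hy =>
    ⟨(gr.memS _ _ hy).2, mul_mem (mul_mem hs' hy) (inv_mem hs')⟩⟩

/-- The isomorphism. -/
theorem Gr.fiso (gr : Gr S S' H) (h1 : ∀ P f, Mp F P f → Tr F' H P f)
    (h2 : ∀ P f, Mp F' P f → Tr F (H.map (MulEquiv.prodComm : Ω × Ω' ≃* Ω' × Ω).toMonoidHom) P f) :
    ∃ (j : Ω → Ω') (j' : Ω' → Ω), Cfsg.Agent.H285.SF.FIso F F' j j' ∧ ∀ x y, (x, y) ∈ H → j x = y := by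
  obtain ⟨j, hj⟩ := gr.exists_j
  obtain ⟨j', hj'⟩ := gr.exists_j'
  have hsw : ∀ x y, (x, y) ∈ H ↔ (y, x) ∈ H.map (MulEquiv.prodComm : Ω × Ω' ≃* Ω' × Ω).toMonoidHom := by
    intro x y
    rw [Subgroup.mem_map]
    constructor
    · intro h
      exact ⟨(x, y), h, rfl⟩
    · rintro ⟨⟨x', y'⟩, h, h3⟩
      have h4 : (y', x') = (y, x) := h3
      rw [Prod.mk.injEq] at h4
      rw [← h4.1, ← h4.2]
      exact h
  refine ⟨j, j', ⟨fun x hx => (gr.memS _ _ (hj x hx)).2, fun y hy => (gr.memS _ _ (hj' y hy)).1, fun x hx => ?_, fun y hy => ?_,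
    fun x hx y hy => ?_, fun P P' f hf hP' => ?_, fun P' P f hf hP => ?_⟩, fun x y h => ?_⟩
  · exact gr.uniq' (hj' _ (gr.memS _ _ (hj x hx)).2) (hj x hx)
  · exact gr.uniq (hj _ (gr.memS _ _ (hj' y hy)).1) (hj' y hy)
  · exact gr.uniq (hj _ (mul_mem hx hy)) (mul_mem (hj x hx) (hj y hy))
  · obtain ⟨P'', f', h3, h4⟩ := h1 P f hf
    have h5 : P' ≤ P'' := fun y hy => by
      obtain ⟨x, hx, rfl⟩ := (hP' y).mp hy
      exact (h4 x hx _ (hj x (hf.le hx))).1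
    refine (h3.res h5).congr fun y hy => ?_
    obtain ⟨x, hx, rfl⟩ := (hP' y).mp hy
    have h6 : j' (j x) = x := gr.uniq' (hj' _ (gr.memS _ _ (hj x (hf.le hx))).2) (hj x (hf.le hx))
    show j (f (j' (j x))) = _
    rw [h6]
    exact gr.uniq (hj _ (hf.mem hx)) (h4 x hx _ (hj x (hf.le hx))).2
  · obtain ⟨P'', f', h3, h4⟩ := h2 P' f hf
    have h7 : ∀ y ∈ P', (y, j' y) ∈ H.map (MulEquiv.prodComm : Ω × Ω' ≃* Ω' × Ω).toMonoidHom := fun y hy =>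
      (hsw _ _).mp (hj' y (hf.le hy))
    have h5 : P ≤ P'' := fun x hx => by
      obtain ⟨y, hy, rfl⟩ := (hP x).mp hx
      exact (h4 y hy _ (h7 y hy)).1
    refine (h3.res h5).congr fun x hx => ?_
    obtain ⟨y, hy, rfl⟩ := (hP x).mp hx
    have h6 : j (j' y) = y := gr.uniq (hj _ (gr.memS _ _ (hj' y (hf.le hy))).1) (hj' y (hf.le hy))
    show j' (f (j (j' y))) = _
    rw [h6]
    have h8 := (hsw _ _).mpr (h4 y hy _ (h7 y hy)).2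
    exact gr.uniq' (hj' _ (hf.mem hy)) h8
  · exact gr.uniq (hj x (gr.memS _ _ h).1) h

end Cfsg.Agent.H764.Q
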